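import Cfsg.Agent.Blocks.OrderP.Perfect.Split
import Cfsg.Agent.SmallSimple.Basic
import Cfsg.Agent.Chars.PermChar.Basic
import Mathlib.GroupTheory.GroupAction.Quotient

/-!
# Simple groups of degree `3p` with a Sylow normalizer of order `2p`: the setting
-/

set_option autoImplicit false
set_option linter.style.haveILetI false
set_option linter.unusedSectionVars false

namespace CfsgLib.ItoThreeP

open Cfsg CfsgLib MulAction

universe u v

/-- The setting: `G` is simple nonabelian, acts transitively on `3p` points, and the normalizer of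
the subgroup generated by `a` of order `p` has order `2p`. -/
structure Hyp (p : ℕ) (G : Type u) [Group G] (Ω : Type v) [Fintype Ω] (a : G) : Prop where
  hp3 : 3 < p
  nc : ¬ IsMulCommutative G
  hΩ : Fintype.card Ω = 3 * p
  ha : orderOf a = p
  hN : Nat.card (Subgroup.normalizer (Subgroup.zpowers a : Set G)) = 2 * p
  hidx : ¬ p ∣ (Subgroup.zpowers a).index

variable {p : ℕ} [hp : Fact p.Prime] {G : Type u} [Group G] [Fintype G] [IsSimpleGroup G]
  {Ω : Type v} [Fintype Ω] [MulAction G Ω] [FaithfulSMul G Ω] [IsPretransitive G Ω] {a : G}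

theorem commutator_top (hG : ¬ IsMulCommutative G) : commutator G = ⊤ := by
  rcases (Subgroup.Normal.eq_bot_or_eq_top (inferInstance : (commutator G).Normal)) with h | h
  · exact absurd ((commutator_eq_bot_iff G).1 h) hG
  · exact h

/-- A nontrivial irreducible character of a simple group is faithful. -/
theorem eq_one_of_map_eq (χ : IrrCharacter G) (hχ : χ ≠ Chars.oneChar G) {g : G}
    (hg : (χ : G → ℂ) g = (χ : G → ℂ) 1) : g = 1 := by
  haveI hn := Chars.charKer_normal (Chars.isClassFunction_coe χ)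
  rcases hn.eq_bot_or_eq_top with h | h
  · have hm : g ∈ Chars.charKer (χ : G → ℂ) := (Chars.mem_charKer_iff (Chars.isCharacter_coe χ)).2 hg
    rwa [h, Subgroup.mem_bot] at hm
  · exfalso
    have hc : ∀ x, (χ : G → ℂ) x = (χ : G → ℂ) 1 := fun x =>
      Chars.map_eq_map_one_of_mem_charKer (h ▸ Subgroup.mem_top x)
    have h0 := Chars.classInner_of_ne hχ
    simp only [classInner, Chars.oneChar_apply, map_one, mul_one, hc, Finset.sum_const,
      Finset.card_univ, nsmul_eq_mul, ← Nat.card_eq_fintype_card] at h0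
    rw [inv_mul_cancel_left₀ Chars.natCard_ne_zero] at h0
    exact Chars.map_one_ne_zero χ h0

theorem exists_hyp (hp3 : 3 < p) (hG : ¬ IsMulCommutative G) (hΩ : Fintype.card Ω = 3 * p)
    (P : Sylow p G)
    (hN : Nat.card (Subgroup.normalizer ((P : Subgroup G) : Set G)) = 2 * p) :
    ∃ a : G, (P : Subgroup G) = Subgroup.zpowers a ∧ Hyp p G Ω a := by
  have hd : p ∣ Nat.card G := by
    have h : Nat.card Ω ∣ Nat.card G := by
      haveI : Nonempty Ω := Fintype.card_pos_iff.1 (by rw [hΩ]; omega)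
      obtain ⟨α⟩ := (inferInstance : Nonempty Ω)
      rw [← index_stabilizer_of_transitive G α]
      exact (stabilizer G α).index_dvd_card
    rw [Nat.card_eq_fintype_card, hΩ] at h
    exact (dvd_mul_left p 3).trans h
  obtain ⟨k, hk⟩ := (IsPGroup.iff_card.1 P.2)
  have hk1 : k = 1 := by
    have h1 : p ^ k ∣ 2 * p := hk ▸ hN ▸ Subgroup.card_dvd_of_le Subgroup.le_normalizer
    have h0 : k ≠ 0 := fun h => P.ne_bot_of_dvd_card hd (Subgroup.card_eq_one.1 (by rw [hk, h, pow_zero]))
    by_contra h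
    have h2 : p ^ 2 ∣ 2 * p := (pow_dvd_pow p (by omega : 2 ≤ k)).trans h1
    rw [pow_two, Nat.mul_dvd_mul_iff_right hp.out.pos] at h2
    have := Nat.le_of_dvd (by norm_num) h2
    omega
  rw [hk1, pow_one] at hk
  haveI := isCyclic_of_prime_card hk
  obtain ⟨g, hg⟩ := IsCyclic.exists_generator (α := (P : Subgroup G))
  have hP : (P : Subgroup G) = Subgroup.zpowers (g : G) := by
    refine le_antisymm (fun x hx => ?_) (Subgroup.zpowers_le.2 g.2)
    obtain ⟨j, hj⟩ := Subgroup.mem_zpowers_iff.1 (hg ⟨x, hx⟩)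
    exact Subgroup.mem_zpowers_iff.2 ⟨j, by simpa using congrArg Subtype.val hj⟩
  refine ⟨g, hP, hp3, hG, hΩ, ?_, ?_, hP ▸ P.not_dvd_index⟩
  · rw [← Nat.card_zpowers, ← hP, hk]
  · rw [← hP, hN]

namespace Hyp

variable (H : Hyp p G Ω a)
include H

theorem card_zpowers : Nat.card (Subgroup.zpowers a) = p := by rw [Nat.card_zpowers, H.ha]

theorem ne_one : a ≠ 1 := fun h => by
  have := H.ha; rw [h, orderOf_one] at this; exact hp.out.ne_one this.symm

theorem p_dvd_card : p ∣ Nat.card G := H.ha ▸ orderOf_dvd_natCard a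

theorem odd : Odd p := hp.out.odd_of_ne_two (by have := H.hp3; omega)

/-- The Sylow subgroup. -/
noncomputable def sylow : Sylow p G :=
  (IsPGroup.of_card (n := 1) (by rw [H.card_zpowers, pow_one]) :
    IsPGroup p (Subgroup.zpowers a)).toSylow H.hidx

theorem coe_sylow : (H.sylow : Subgroup G) = Subgroup.zpowers a := rfl

theorem exists_setup : ∃ n, Blocks.OrderP.Perfect.Setup p n 2 a ∧
    Subgroup.centralizer ({a} : Set G) = Subgroup.zpowers a := by
  set N := Subgroup.normalizer (Subgroup.zpowers a : Set G) with hNdef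
  set C := Subgroup.centralizer (Subgroup.zpowers a : Set G)
  obtain ⟨n, hn⟩ : ∃ n, Nat.card (Sylow p G) = 1 + n * p := by
    refine ⟨Nat.card (Sylow p G) / p, ?_⟩
    have h5 : Nat.card (Sylow p G) % p = 1 :=
      Eq.trans (card_sylow_modEq_one p G) (Nat.one_mod_eq_one.2 hp.out.ne_one)
    conv_lhs => rw [← Nat.div_add_mod (Nat.card (Sylow p G)) p, h5]
    ring
  have hidx : N.index = 1 + n * p := by
    rw [← hn, Sylow.card_eq_index_normalizer H.sylow]
    rfl
  have S : Blocks.OrderP.Perfect.Setup p n (C.relIndex N) a :=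
    ⟨H.ha, H.hidx, commutator_top H.nc, hidx, rfl⟩
  have hCN : C ≤ N := Subgroup.centralizer_le_normalizer _
  have hPC : Subgroup.zpowers a ≤ C := Subgroup.le_centralizer (Subgroup.zpowers a)
  have h2 : C.relIndex N * Nat.card C = 2 * p := by
    rw [← H.hN, ← hNdef, ← Subgroup.relIndex_bot_left, ← Subgroup.relIndex_bot_left,
      mul_comm, Subgroup.relIndex_mul_relIndex _ _ _ bot_le hCN]
  have hle := Nat.le_of_dvd Nat.card_pos (Subgroup.card_dvd_of_le hPC)
  rw [H.card_zpowers] at hle
  have he2 : C.relIndex N = 2 := by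
    have := S.two_le_e
    have h3 : C.relIndex N * p ≤ 2 * p := h2 ▸ Nat.mul_le_mul_left _ hle
    have := Nat.le_of_mul_le_mul_right h3 hp.out.pos
    omega
  have hcard : Nat.card C = p := by
    rw [he2] at h2; omega
  have hC : C = Subgroup.zpowers a :=
    (Subgroup.eq_of_le_of_card_ge hPC (by rw [hcard, H.card_zpowers])).symm
  refine ⟨n, he2 ▸ S, ?_⟩
  rw [← Blocks.HeightZero.centralizer_zpowers_eq]
  exact hC

theorem centralizer_eq : Subgroup.centralizer ({a} : Set G) = Subgroup.zpowers a :=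
  (exists_setup H).choose_spec.2

theorem mem_zpowers_of_commute {x : G} (h : Commute x a) : x ∈ Subgroup.zpowers a := by
  rw [← H.centralizer_eq, Subgroup.mem_centralizer_singleton_iff]
  exact h.eq

theorem eq_one_of_commute_zpowers {b : G} (hb : b ∈ Subgroup.zpowers a) (hb1 : b ≠ 1) :
    a ∈ Subgroup.zpowers b := by
  obtain ⟨j, hj⟩ := Subgroup.mem_zpowers_iff.1 (mem_zpowers_of_prime_card
    (g := (⟨b, hb⟩ : Subgroup.zpowers a)) (g' := ⟨a, Subgroup.mem_zpowers a⟩) H.card_zpowers
    fun e => hb1 (congrArg Subtype.val e))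
  exact Subgroup.mem_zpowers_iff.2 ⟨j, congrArg Subtype.val hj⟩

/-- An element of order `p` is conjugate to a power of `a`. -/
theorem exists_conj {g : G} (hg : orderOf g = p) :
    ∃ x : G, x * g * x⁻¹ ∈ Subgroup.zpowers a ∧ x * g * x⁻¹ ≠ 1 := by
  obtain ⟨P, hP⟩ := (IsPGroup.of_card (n := 1) (by rw [Nat.card_zpowers, hg, pow_one]) :
    IsPGroup p (Subgroup.zpowers g)).exists_le_sylow
  obtain ⟨x, hx⟩ := MulAction.exists_smul_eq G P H.sylow
  refine ⟨x, ?_, fun h => ?_⟩
  · rw [← H.coe_sylow, ← hx, Sylow.coe_subgroup_smul]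
    exact Subgroup.smul_mem_pointwise_smul g (MulAut.conj x) _ (hP (Subgroup.mem_zpowers g))
  · rw [conj_eq_one_iff] at h
    rw [h, orderOf_one] at hg
    exact hp.out.ne_one hg.symm

/-- The centraliser of an element of order `p` is the subgroup it generates. -/
theorem orderOf_of_dvd {g : G} (hg : p ∣ orderOf g) : orderOf g = p := by
  have hg0 : orderOf g ≠ 0 := (orderOf_pos g).ne'
  obtain ⟨k, hk⟩ := hg
  have hk0 : k ≠ 0 := fun h => hg0 (by rw [hk, h, mul_zero])
  have hb : orderOf (g ^ k) = p := by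
    rw [orderOf_pow' _ hk0, hk, Nat.gcd_eq_right (dvd_mul_left k p),
      Nat.mul_div_cancel _ (Nat.pos_of_ne_zero hk0)]
  obtain ⟨x, hx, hx1⟩ := H.exists_conj hb
  have hcomm : Commute (x * g * x⁻¹) (x * g ^ k * x⁻¹) := by
    have h0 := (Commute.self_pow g k).map (MulAut.conj x)
    simpa using h0
  obtain ⟨j, hj⟩ := Subgroup.mem_zpowers_iff.1 (H.eq_one_of_commute_zpowers hx hx1)
  have h2 : Commute (x * g * x⁻¹) a := hj ▸ hcomm.zpow_right j
  have h3 := Subgroup.orderOf_dvd_natCard _ (H.mem_zpowers_of_commute h2)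
  rw [H.card_zpowers, show x * g * x⁻¹ = MulAut.conj x g by simp,
    MulEquiv.orderOf_eq] at h3
  rcases (Nat.dvd_prime hp.out).1 h3 with h | h
  · rw [h] at hk
    have h5 : 1 = p * k := hk
    exact absurd (Nat.eq_one_of_mul_eq_one_right h5.symm) hp.out.ne_one
  · exact h

theorem not_sq_dvd : ¬ p * p ∣ Nat.card G := by
  intro h
  apply H.hidx
  rw [← (Subgroup.zpowers a).card_mul_index, H.card_zpowers] at h
  exact (Nat.mul_dvd_mul_iff_left hp.out.pos).1 h

theorem card_stab (α : Ω) : 3 * p * Nat.card (stabilizer G α) = Nat.card G := by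
  rw [← Subgroup.card_mul_index (stabilizer G α), index_stabilizer_of_transitive,
    Nat.card_eq_fintype_card (α := Ω), H.hΩ, mul_comm]

theorem not_dvd_stab (α : Ω) : ¬ p ∣ Nat.card (stabilizer G α) := fun ⟨k, hk⟩ =>
  H.not_sq_dvd ⟨3 * k, by rw [← H.card_stab α, hk]; ring⟩

/-- An element of order divisible by `p` fixes nothing. -/
theorem smul_ne_of_dvd {g : G} (hg : p ∣ orderOf g) (α : Ω) : g • α ≠ α := fun h =>
  H.not_dvd_stab α (hg.trans (Subgroup.orderOf_dvd_natCard (stabilizer G α) h))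

theorem fixChar_eq_zero {g : G} (hg : p ∣ orderOf g) :
    Chars.PermChar.fixChar G Ω g = 0 := by
  haveI : IsEmpty (fixedBy Ω g) := ⟨fun x => H.smul_ne_of_dvd hg x.1 x.2⟩
  simp [Chars.PermChar.fixChar]

theorem index_two : ((Subgroup.zpowers a).subgroupOf
    (Subgroup.normalizer (Subgroup.zpowers a : Set G))).index = 2 := by
  have h0 := ((Subgroup.zpowers a).subgroupOf
    (Subgroup.normalizer (Subgroup.zpowers a : Set G))).card_mul_index
  rw [Nat.card_congr (Subgroup.subgroupOfEquivOfLe Subgroup.le_normalizer).toEquiv,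
    H.card_zpowers, H.hN, mul_comm 2] at h0
  exact Nat.eq_of_mul_eq_mul_left hp.out.pos h0

/-- The elements of the normalizer outside the Sylow subgroup are involutions inverting it. -/
theorem sq_of_notMem {x : G} (hx : x ∈ Subgroup.normalizer (Subgroup.zpowers a : Set G))
    (hxP : x ∉ Subgroup.zpowers a) : x * x = 1 ∧ x * a * x = a⁻¹ := by
  have hsq : ∀ y : G, y ∈ Subgroup.normalizer (Subgroup.zpowers a : Set G) →
      y ∉ Subgroup.zpowers a → y * y = 1 := by
    intro y hy hyP
    have hy2 : y * y ∈ Subgroup.zpowers a :=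
      Subgroup.mem_subgroupOf.1 (Subgroup.mul_self_mem_of_index_two H.index_two ⟨y, hy⟩)
    by_contra h1
    obtain ⟨j, hj⟩ := Subgroup.mem_zpowers_iff.1 (H.eq_one_of_commute_zpowers hy2 h1)
    have hc : Commute y (y * y) := (Commute.refl y).mul_right (Commute.refl y)
    have := hc.zpow_right j
    rw [hj] at this
    exact hyP (H.mem_zpowers_of_commute this)
  refine ⟨hsq x hx hxP, ?_⟩
  have h2 := hsq (x * a) (mul_mem hx (Subgroup.le_normalizer (Subgroup.mem_zpowers a)))
    fun h => hxP (by simpa using mul_mem h (inv_mem (Subgroup.mem_zpowers a)))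
  exact eq_inv_of_mul_eq_one_left (by simpa [mul_assoc] using h2)

theorem exists_inverter : ∃ t : G, orderOf t = 2 ∧ t * a * t = a⁻¹ := by
  obtain ⟨x, hx, hxP⟩ : ∃ x ∈ Subgroup.normalizer (Subgroup.zpowers a : Set G),
      x ∉ Subgroup.zpowers a := by
    by_contra h
    push Not at h
    have := Subgroup.card_le_of_le (show _ ≤ Subgroup.zpowers a from h)
    rw [H.hN, H.card_zpowers] at this
    have := H.hp3
    omega
  obtain ⟨h1, h2⟩ := H.sq_of_notMem hx hxP
  refine ⟨x, orderOf_eq_prime (by rw [pow_two, h1]) fun h => hxP (h ▸ one_mem _), h2⟩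

theorem notMem_of_inverts {v : G} (hv : v * a * v = a⁻¹) (hv2 : v * v = 1) :
    v ∈ Subgroup.normalizer (Subgroup.zpowers a : Set G) ∧ v ∉ Subgroup.zpowers a := by
  have hvi : v⁻¹ = v := inv_eq_of_mul_eq_one_left hv2
  refine ⟨?_, fun h => ?_⟩
  · rw [Subgroup.mem_normalizer_iff]
    have key : ∀ y ∈ Subgroup.zpowers a, v * y * v⁻¹ ∈ Subgroup.zpowers a := by
      intro y hy
      obtain ⟨j, rfl⟩ := Subgroup.mem_zpowers_iff.1 hy
      have e1 : v * a ^ j * v⁻¹ = (v * a * v⁻¹) ^ j := by
        simpa using (map_zpow (MulAut.conj v) a j)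
      rw [e1, hvi, hv]
      exact zpow_mem (inv_mem (Subgroup.mem_zpowers a)) j
    intro y
    refine ⟨key y, fun hy => ?_⟩
    have := key _ hy
    rw [hvi] at this
    rwa [show v * (v * y * v) * v = y by
      rw [show v * (v * y * v) * v = (v * v) * y * (v * v) by group, hv2, one_mul, mul_one]] at this
  · have hc : Commute v a := by
      obtain ⟨j, rfl⟩ := Subgroup.mem_zpowers_iff.1 h
      exact (Commute.refl a).zpow_left j
    rw [hc.eq, mul_assoc, hv2, mul_one] at hv
    have : a * a = 1 := by nth_rewrite 2 [hv]; exact mul_inv_cancel a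
    have h2 : orderOf a ∣ 2 := orderOf_dvd_of_pow_eq_one (by rw [pow_two, this])
    rw [H.ha] at h2
    have := Nat.le_of_dvd (by norm_num) h2
    have := H.hp3
    omega

end Hyp

end CfsgLib.ItoThreeP
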