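import Cfsg.Agent.ItoThreeP.Basic

/-!
# The principal block for the prime `p`
-/

set_option autoImplicit false
set_option linter.style.haveILetI false
set_option linter.unusedSectionVars false

namespace CfsgLib.ItoThreeP

open Cfsg CfsgLib MulAction
open scoped ComplexConjugate

universe u v

variable {p : ℕ} [hp : Fact p.Prime] {G : Type u} [Group G] [Fintype G] [IsSimpleGroup G]
  {Ω : Type v} [Fintype Ω] [MulAction G Ω] [FaithfulSMul G Ω] [IsPretransitive G Ω] {a : G}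

/-- The principal block: `1`, `ψ` and `(p - 1) / 2` exceptional characters. -/
structure Data (p : ℕ) (G : Type u) [Group G] [Fintype G] (a : G) where
  ψ : IrrCharacter G
  θ : IrrCharacter G
  Y : Finset (IrrCharacter G)
  ε : ℤ
  η : ℤ
  f : ℕ
  x : ℕ
  hf : charDegree (ψ : G → ℂ) = f
  hx : charDegree (θ : G → ℂ) = x
  f_ne_one : f ≠ 1
  x_ne_one : x ≠ 1
  hε : ε = 1 ∨ ε = -1
  hη : η = 1 ∨ η = -1
  congrf : (f : ZMod p) = (η : ZMod p)
  congrx : (x : ZMod p) = (ε : ZMod p) * 2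
  θ_mem : θ ∈ Y
  cardY : 2 * Y.card = p - 1
  ψ_ne : ψ ≠ Chars.oneChar G
  one_notMem : Chars.oneChar G ∉ Y
  ψ_notMem : ψ ∉ Y
  regular : ∀ θ' ∈ Y, ∀ g : G, ¬ p ∣ orderOf g → (θ' : G → ℂ) g = (θ : G → ℂ) g
  rel : ∀ g : G, ¬ p ∣ orderOf g → (ε : ℂ) * (θ : G → ℂ) g = 1 + (η : ℂ) * (ψ : G → ℂ) g
  valψ : ∀ b ∈ Subgroup.zpowers a, b ≠ 1 → (ψ : G → ℂ) b = (η : ℂ)
  sumY : ∀ b ∈ Subgroup.zpowers a, b ≠ 1 → ∑ θ' ∈ Y, (θ' : G → ℂ) b = -(ε : ℂ)
  vanish : ∀ χ : IrrCharacter G, χ ≠ Chars.oneChar G → χ ≠ ψ → χ ∉ Y →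
    ∀ b ∈ Subgroup.zpowers a, b ≠ 1 → (χ : G → ℂ) b = 0

theorem Hyp.exists_data (H : Hyp p G Ω a) : Nonempty (Data p G a) := by
  classical
  obtain ⟨n, S, hC⟩ := H.exists_setup
  obtain ⟨M, hM⟩ := Blocks.exists_isPModular p hp.out
  haveI := Blocks.isMaximal_of_isPModular hM
  obtain ⟨B⟩ := S.exists_blk hM
  obtain ⟨ψ, hψX, hψ1⟩ : ∃ ψ ∈ B.X, ψ ≠ Chars.oneChar G := by
    have h : 1 < B.X.card := by rw [B.cardX]; omega
    obtain ⟨y, hy, hne⟩ := Finset.exists_mem_ne h (Chars.oneChar G)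
    exact ⟨y, hy, hne⟩
  have hX : B.X = {Chars.oneChar G, ψ} := by
    symm
    refine Finset.eq_of_subset_of_card_le ?_ ?_
    · intro z hz
      simp only [Finset.mem_insert, Finset.mem_singleton] at hz
      rcases hz with rfl | rfl
      · exact B.one_mem
      · exact hψX
    · rw [B.cardX, Finset.card_pair hψ1.symm]
  obtain ⟨θ, hθ⟩ := B.Y_nonempty
  have hup : ∀ b ∈ Subgroup.zpowers a, b ≠ 1 → ∃ i : ZMod p, i ≠ 0 ∧ b = Blocks.OrderP.upow a i := by
    intro b hb hb1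
    obtain ⟨i, hi⟩ := (Blocks.OrderP.mem_zpowers_iff_upow H.ha).1 hb
    exact ⟨i, fun h => hb1 (by rw [hi, h, Blocks.OrderP.upow_zero H.ha]), hi⟩
  refine ⟨{ ψ := ψ, θ := θ, Y := B.Y, ε := B.ε, η := B.εX ψ,
            f := charDegree (ψ : G → ℂ), x := charDegree (θ : G → ℂ), hf := rfl, hx := rfl,
            f_ne_one := B.deg_ne_one S (Or.inr hψ1), x_ne_one := B.deg_ne_one S (Or.inl hθ),
            hε := B.hε, hη := B.sign ψ hψX, congrf := B.congrX ψ hψX,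
            congrx := by simpa using B.congrY θ hθ, θ_mem := hθ, cardY := ?_, ψ_ne := hψ1,
            one_notMem := Finset.disjoint_left.1 B.disj B.one_mem,
            ψ_notMem := Finset.disjoint_left.1 B.disj hψX,
            regular := fun θ' h g hg => B.Y_regular_eq h hθ hg,
            rel := ?_, valψ := ?_, sumY := ?_, vanish := ?_ }⟩
  · rw [B.cardY, mul_comm, B.ht]
  · intro g hg
    rw [B.rel θ hθ g hg, hX, Finset.sum_pair hψ1.symm, B.εX_one]
    simp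
  · intro b hb hb1
    obtain ⟨i, hi, rfl⟩ := hup b hb hb1
    exact B.valX ψ hψX i hi
  · intro b hb hb1
    obtain ⟨i, hi, rfl⟩ := hup b hb hb1
    exact B.sum_Y_apply S hM hi
  · intro χ h1 h2 h3 b hb hb1
    obtain ⟨i, hi, rfl⟩ := hup b hb hb1
    refine S.apply_eq_zero hM hC (fun hχ => ?_) hi
    rcases (B.mem_iff χ).1 hχ with h | h
    · rw [hX] at h
      simp only [Finset.mem_insert, Finset.mem_singleton] at h
      exact h.elim h1 h2
    · exact h3 h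

namespace Data

variable (D : Data p G a) (H : Hyp p G Ω a)
include H

theorem f_pos : 0 < D.f := D.hf ▸ Chars.charDegree_pos D.ψ

theorem x_pos : 0 < D.x := D.hx ▸ Chars.charDegree_pos D.θ

theorem deg_rel : D.ε * (D.x : ℤ) = 1 + D.η * (D.f : ℤ) := by
  refine Int.cast_injective (α := ℂ) ?_
  push_cast
  have h := D.rel 1 (by rw [orderOf_one]; exact hp.out.not_dvd_one)
  rwa [← Chars.coe_charDegree, ← Chars.coe_charDegree, D.hf, D.hx] at h

/-- The degree of a character outside the block is a multiple of `p`. -/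
theorem dvd_deg (χ : IrrCharacter G) (h1 : χ ≠ Chars.oneChar G) (h2 : χ ≠ D.ψ) (h3 : χ ∉ D.Y) :
    p ∣ charDegree (χ : G → ℂ) := by
  classical
  letI := Fintype.ofFinite (Subgroup.zpowers a)
  obtain ⟨k, hk⟩ := Blocks.exists_sum_subgroup_eq χ (Subgroup.zpowers a)
  rw [Fintype.sum_eq_single (1 : Subgroup.zpowers a) (fun b hb => D.vanish χ h1 h2 h3 b b.2
    fun h => hb (Subtype.ext h)), OneMemClass.coe_one, ← Chars.coe_charDegree] at hk
  simp only [H.card_zpowers, ← Nat.card_eq_fintype_card] at hk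
  exact ⟨k, by exact_mod_cast hk⟩

/-- The sum `∑ χ(s) χ(s') χ̄(a) / χ(1)`. -/
theorem sum_class_term (s : G) (hs : ¬ p ∣ orderOf s) :
    ∑ χ : IrrCharacter G, (χ : G → ℂ) s * (χ : G → ℂ) s * conj ((χ : G → ℂ) a) /
        (χ : G → ℂ) 1 =
      1 + (D.η : ℂ) * (D.ψ : G → ℂ) s ^ 2 / (D.f : ℂ) -
        (D.ε : ℂ) * (D.θ : G → ℂ) s ^ 2 / (D.x : ℂ) := by
  classical
  have ha1 := H.ne_one
  have ham := Subgroup.mem_zpowers a
  rw [← Finset.sum_subset (Finset.subset_univ (insert (Chars.oneChar G) (insert D.ψ D.Y)))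
    (fun χ _ hχ => by
      simp only [Finset.mem_insert, not_or] at hχ
      rw [D.vanish χ hχ.1 hχ.2.1 hχ.2.2 a ham ha1]
      simp),
    Finset.sum_insert (by simp [D.ψ_ne.symm, D.one_notMem]),
    Finset.sum_insert D.ψ_notMem]
  have hY : ∑ χ ∈ D.Y, (χ : G → ℂ) s * (χ : G → ℂ) s * conj ((χ : G → ℂ) a) / (χ : G → ℂ) 1 =
      (D.θ : G → ℂ) s ^ 2 / (D.x : ℂ) * conj (∑ χ ∈ D.Y, (χ : G → ℂ) a) := by
    rw [map_sum, Finset.mul_sum]
    refine Finset.sum_congr rfl fun χ hχ => ?_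
    have h1 : (χ : G → ℂ) 1 = (D.x : ℂ) := by
      rw [D.regular χ hχ 1 (by rw [orderOf_one]; exact hp.out.not_dvd_one),
        ← Chars.coe_charDegree, D.hx]
    rw [D.regular χ hχ s hs, h1]
    ring
  have h1 : (D.ψ : G → ℂ) 1 = (D.f : ℂ) := by rw [← Chars.coe_charDegree, D.hf]
  rw [hY, D.sumY a ham ha1, D.valψ a ham ha1, h1]
  simp only [Chars.oneChar_apply, map_one, map_neg, map_intCast]
  ring

end Data

end CfsgLib.ItoThreeP
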