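import Cfsg.Agent.ItoThreeP.Chars

/-!
# Products of two involutions of order `p`
-/

set_option autoImplicit false
set_option linter.style.haveILetI false
set_option linter.unusedSectionVars false

namespace CfsgLib.ItoThreeP

open Cfsg CfsgLib MulAction
open scoped ComplexConjugate

universe u v

variable {p : ℕ} [hp : Fact p.Prime] {G : Type u} [Group G] [Fintype G] [IsSimpleGroup G]
  {Ω : Type v} [Fintype Ω] [MulAction G Ω] [FaithfulSMul G Ω] [IsPretransitive G Ω] {a : G}

section Count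

variable (a) [DecidableEq G]

/-- Pairs of conjugators realising `a` as a product of two conjugates of `s`. -/
def pairSet (s : G) : Finset (G × G) :=
  Finset.univ.filter fun q => q.1 * s * q.1⁻¹ * (q.2 * s * q.2⁻¹) = a

theorem card_conj_eq {g : G} (h : IsConj a g) :
    (Finset.univ.filter fun x : G => x * g * x⁻¹ = a).card =
      Nat.card (Subgroup.centralizer ({a} : Set G)) := by
  classical
  obtain ⟨c, hc⟩ := isConj_iff.1 h
  subst hc
  rw [Nat.card_eq_fintype_card, Fintype.card_subtype]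
  refine Finset.card_equiv (Equiv.mulRight c) fun x => ?_
  simp only [Finset.mem_filter, Finset.mem_univ, true_and, Equiv.coe_mulRight,
    Subgroup.mem_centralizer_singleton_iff]
  constructor
  · intro e
    calc x * c * a = (x * (c * a * c⁻¹) * x⁻¹) * (x * c) := by group
      _ = a * (x * c) := by rw [e]
  · intro e
    calc x * (c * a * c⁻¹) * x⁻¹ = (x * c * a) * (x * c)⁻¹ := by group
      _ = a * (x * c) * (x * c)⁻¹ := by rw [e]
      _ = a := by group

theorem card_pairSet (s : G) :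
    (pairSet a s).card = Nat.card (Subgroup.centralizer ({a} : Set G)) *
      (Finset.univ.filter fun y : G => IsConj a (s * (y * s * y⁻¹))).card := by
  classical
  have h1 : (pairSet a s).card =
      (Finset.univ.filter fun q : G × G => q.1 * (s * (q.2 * s * q.2⁻¹)) * q.1⁻¹ = a).card := by
    refine Finset.card_equiv
      { toFun := fun q => (q.1, q.1⁻¹ * q.2), invFun := fun q => (q.1, q.1 * q.2),
        left_inv := fun q => by simp, right_inv := fun q => by simp } fun q => ?_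
    simp only [pairSet, Finset.mem_filter, Finset.mem_univ, true_and, Equiv.coe_fn_mk]
    rw [show q.1 * (s * (q.1⁻¹ * q.2 * s * (q.1⁻¹ * q.2)⁻¹)) * q.1⁻¹ =
      q.1 * s * q.1⁻¹ * (q.2 * s * q.2⁻¹) by group]
  rw [h1, Finset.card_eq_sum_card_fiberwise (f := fun q : G × G => q.2)
    (t := Finset.univ.filter fun y : G => IsConj a (s * (y * s * y⁻¹)))]
  · rw [Finset.sum_const_nat (m := Nat.card (Subgroup.centralizer ({a} : Set G))), mul_comm]
    intro y hy
    rw [← card_conj_eq a (Finset.mem_filter.1 hy).2]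
    refine Finset.card_bij (fun q _ => q.1) (fun q hq => ?_) (fun q hq q' hq' e => ?_) fun x hx => ?_
    · simp only [Finset.mem_filter, Finset.mem_univ, true_and] at hq ⊢
      rw [hq.2] at hq; exact hq.1
    · simp only [Finset.mem_filter, Finset.mem_univ, true_and] at hq hq'
      exact Prod.ext e (hq.2.trans hq'.2.symm)
    · exact ⟨(x, y), by simpa using (Finset.mem_filter.1 hx).2, rfl⟩
  · intro q hq
    simp only [Finset.mem_coe, Finset.mem_filter, Finset.mem_univ, true_and] at hq ⊢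
    exact (isConj_iff.2 ⟨q.1, hq⟩).symm

end Count

namespace Hyp

variable (H : Hyp p G Ω a)
include H

theorem conj_of_inverts {t v : G} (ht : t * a * t = a⁻¹) (ht2 : t * t = 1)
    (hv : v ∈ Subgroup.normalizer (Subgroup.zpowers a : Set G)) (hvP : v ∉ Subgroup.zpowers a) :
    IsConj t v := by
  obtain ⟨htN, htP⟩ := H.notMem_of_inverts ht ht2
  have hm : t * v ∈ Subgroup.zpowers a :=
    Subgroup.mem_subgroupOf.1 ((Subgroup.mul_mem_iff_of_index_two H.index_two
      (a := ⟨t, htN⟩) (b := ⟨v, hv⟩)).2 (iff_of_false htP hvP))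
  obtain ⟨j, hj⟩ := Subgroup.mem_zpowers_iff.1 hm
  obtain ⟨k, hk⟩ := H.odd
  refine isConj_iff.2 ⟨(a ^ (((k : ℤ) + 1) * j))⁻¹, ?_⟩
  set i : ℤ := ((k : ℤ) + 1) * j
  have hinv : t⁻¹ = t := inv_eq_of_mul_eq_one_left ht2
  have h1 : t * a ^ i * t = (a ^ i)⁻¹ := by
    have h0 : MulAut.conj t (a ^ i) = (MulAut.conj t a) ^ i := map_zpow _ _ _
    simp only [MulAut.conj_apply, hinv, ht] at h0
    rw [h0, inv_zpow]
  have h2 : a ^ i * a ^ i = a ^ j := by
    have h3 : a ^ (p : ℤ) = 1 := by rw [zpow_natCast, ← H.ha, pow_orderOf_eq_one]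
    rw [← zpow_add, show i + i = (p : ℤ) * j + j by simp only [i, hk]; push_cast; ring,
      zpow_add, zpow_mul, h3, one_zpow, one_mul]
  have hv' : v = t * a ^ j := by rw [hj, ← mul_assoc, ht2, one_mul]
  rw [hv', inv_inv, ← h1, ← h2]
  calc t * a ^ i * t * t * a ^ i = t * a ^ i * (t * t) * a ^ i := by simp only [mul_assoc]
    _ = t * (a ^ i * a ^ i) := by rw [ht2, mul_one, mul_assoc]

theorem mem_inverters {s x y : G} (hs : s * s = 1) (e : x * s * x⁻¹ * (y * s * y⁻¹) = a) :
    (x * s * x⁻¹ ∈ Subgroup.normalizer (Subgroup.zpowers a : Set G)) ∧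
      x * s * x⁻¹ ∉ Subgroup.zpowers a := by
  have hv : x * s * x⁻¹ * (x * s * x⁻¹) = 1 := by
    rw [show x * s * x⁻¹ * (x * s * x⁻¹) = x * (s * s) * x⁻¹ by group, hs]
    group
  have hsi : s⁻¹ = s := inv_eq_of_mul_eq_one_left hs
  refine H.notMem_of_inverts ?_ hv
  have hvi : (x * s * x⁻¹)⁻¹ = x * s * x⁻¹ := inv_eq_of_mul_eq_one_left hv
  have hwi : (y * s * y⁻¹)⁻¹ = y * s * y⁻¹ := by rw [conj_inv, hsi]
  revert e hv hvi hwi
  generalize x * s * x⁻¹ = v
  generalize y * s * y⁻¹ = w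
  intro e hv hvi hwi
  rw [← e, mul_inv_rev, hvi, hwi, ← mul_assoc, hv, one_mul]

/-- The centraliser of an involution inverting `a`, squared, counts the pairs. -/
theorem card_pairSet_inverter [DecidableEq G] {t : G} (ht : t * a * t = a⁻¹) (ht2 : t * t = 1) :
    (pairSet a t).card = p * Nat.card (Subgroup.centralizer ({t} : Set G)) ^ 2 := by
  classical
  set N := Subgroup.normalizer (Subgroup.zpowers a : Set G)
  set I := Finset.univ.filter fun v : G => v ∈ N ∧ v ∉ Subgroup.zpowers a with hI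
  have hIcard : I.card = p := by
    have h2 : I = (Finset.univ.filter fun v : G => v ∈ N) \
        (Finset.univ.filter fun v : G => v ∈ Subgroup.zpowers a) := by
      ext v; simp [hI]
    rw [h2, Finset.card_sdiff_of_subset (fun v hv => by
      simpa using Subgroup.le_normalizer (Finset.mem_filter.1 hv).2)]
    rw [← Fintype.card_subtype, ← Fintype.card_subtype, ← Nat.card_eq_fintype_card,
      ← Nat.card_eq_fintype_card]
    show Nat.card N - Nat.card (Subgroup.zpowers a) = p
    rw [H.hN, H.card_zpowers]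
    omega
  have hfib : ∀ v : G, IsConj t v →
      (Finset.univ.filter fun x : G => x * t * x⁻¹ = v).card =
        Nat.card (Subgroup.centralizer ({t} : Set G)) := by
    intro v hv
    obtain ⟨c, rfl⟩ := isConj_iff.1 hv
    rw [Nat.card_eq_fintype_card, Fintype.card_subtype]
    refine Finset.card_equiv (Equiv.mulLeft c⁻¹) fun x => ?_
    simp only [Finset.mem_filter, Finset.mem_univ, true_and, Equiv.coe_mulLeft,
      Subgroup.mem_centralizer_singleton_iff]
    constructor
    · intro e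
      calc c⁻¹ * x * t = c⁻¹ * (x * t * x⁻¹) * x := by group
        _ = c⁻¹ * (c * t * c⁻¹) * x := by rw [e]
        _ = t * (c⁻¹ * x) := by group
    · intro e
      calc x * t * x⁻¹ = c * (c⁻¹ * x * t) * x⁻¹ := by group
        _ = c * (t * (c⁻¹ * x)) * x⁻¹ := by rw [e]
        _ = c * t * c⁻¹ := by group
  rw [Finset.card_eq_sum_card_fiberwise (f := fun q : G × G => q.1 * t * q.1⁻¹) (t := I)]
  · rw [Finset.sum_const_nat (m := Nat.card (Subgroup.centralizer ({t} : Set G)) ^ 2), hIcard]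
    intro v hv
    obtain ⟨hvN, hvP⟩ := (Finset.mem_filter.1 hv).2
    obtain ⟨hv2, hva⟩ := H.sq_of_notMem hvN hvP
    have hw : v * a ∈ N ∧ v * a ∉ Subgroup.zpowers a :=
      ⟨mul_mem hvN (Subgroup.le_normalizer (Subgroup.mem_zpowers a)),
        fun h => hvP (by simpa using mul_mem h (inv_mem (Subgroup.mem_zpowers a)))⟩
    rw [pow_two]
    nth_rewrite 1 [← hfib v (H.conj_of_inverts ht ht2 hvN hvP)]
    rw [← hfib (v * a) (H.conj_of_inverts ht ht2 hw.1 hw.2), ← Finset.card_product]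
    congr 1
    ext q
    simp only [pairSet, Finset.mem_filter, Finset.mem_univ, true_and, Finset.mem_product]
    constructor
    · rintro ⟨e, h⟩
      refine ⟨h, ?_⟩
      rw [← e, h, ← mul_assoc, hv2, one_mul]
    · rintro ⟨h, h'⟩
      exact ⟨by rw [h, h', ← mul_assoc, hv2, one_mul], h⟩
  · intro q hq
    simp only [pairSet, Finset.mem_coe, Finset.mem_filter, Finset.mem_univ, true_and] at hq
    simpa [hI] using H.mem_inverters ht2 hq

theorem card_centralizer_a : Nat.card (Subgroup.centralizer ({a} : Set G)) = p := by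
  rw [H.centralizer_eq, H.card_zpowers]

theorem not_dvd_of_sq {s : G} (hs : orderOf s = 2) : ¬ p ∣ orderOf s := fun h => by
  rw [hs] at h
  have := Nat.le_of_dvd (by norm_num) h
  have := H.hp3
  omega

/-- The number of `y` with `s s^y` conjugate to `a`, by characters. -/
theorem class_sum (D : Data p G a) [DecidableEq G] {s : G} (hs : orderOf s = 2) :
    (p : ℂ) * ((Finset.univ.filter fun y : G => IsConj a (s * (y * s * y⁻¹))).card : ℂ) =
      (Nat.card G : ℂ) * (1 + (D.η : ℂ) * (D.ψ : G → ℂ) s ^ 2 / (D.f : ℂ) -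
        (D.ε : ℂ) * (D.θ : G → ℂ) s ^ 2 / (D.x : ℂ)) := by
  classical
  rw [← D.sum_class_term H s (H.not_dvd_of_sq hs)]
  have e : ∀ g : G, (if IsConj a g then (p : ℂ) else 0) =
      ∑ χ : IrrCharacter G, (χ : G → ℂ) g * conj ((χ : G → ℂ) a) := by
    intro g
    have h := congrArg conj (Chars.sum_irr_mul_conj a g)
    rw [map_sum, H.card_centralizer_a, apply_ite conj, map_natCast, map_zero] at h
    refine Eq.trans ?_ (h.symm.trans (Finset.sum_congr rfl fun χ _ => by
      rw [map_mul, Complex.conj_conj, mul_comm]))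
    split_ifs <;> rfl
  calc (p : ℂ) * ((Finset.univ.filter fun y : G => IsConj a (s * (y * s * y⁻¹))).card : ℂ)
      = ∑ y : G, (if IsConj a (s * (y * s * y⁻¹)) then (p : ℂ) else 0) := by
        rw [Finset.sum_ite, Finset.sum_const_zero, add_zero, Finset.sum_const, nsmul_eq_mul,
          mul_comm]
    _ = ∑ χ : IrrCharacter G, conj ((χ : G → ℂ) a) *
          ∑ y : G, (χ : G → ℂ) (s * (y * s * y⁻¹)) := by
        simp only [e, Finset.mul_sum]
        rw [Finset.sum_comm]
        exact Finset.sum_congr rfl fun χ _ => Finset.sum_congr rfl fun y _ => mul_comm _ _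
    _ = _ := by
        rw [Finset.mul_sum]
        refine Finset.sum_congr rfl fun χ _ => ?_
        rw [Chars.sum_map_mul_conjugate]
        ring

/-- The clearing of denominators in the class-sum formula. -/
theorem class_alg (D : Data p G a) {s : G} (hs : orderOf s = 2) :
    (D.f : ℂ) * (1 + (D.η : ℂ) * (D.f : ℂ)) * (1 + (D.η : ℂ) * (D.ψ : G → ℂ) s ^ 2 / (D.f : ℂ) -
        (D.ε : ℂ) * (D.θ : G → ℂ) s ^ 2 / (D.x : ℂ)) =
      (D.η : ℂ) * ((D.f : ℂ) - (D.ψ : G → ℂ) s) ^ 2 := by
  have hf : (D.f : ℂ) ≠ 0 := Nat.cast_ne_zero.2 (D.f_pos H).ne'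
  have hx : (D.x : ℂ) ≠ 0 := Nat.cast_ne_zero.2 (D.x_pos H).ne'
  have hr := D.rel s (H.not_dvd_of_sq hs)
  have hd : (D.ε : ℂ) * (D.x : ℂ) = 1 + (D.η : ℂ) * (D.f : ℂ) := by
    exact_mod_cast congrArg (Int.cast : ℤ → ℂ) (D.deg_rel H)
  have hε : (D.ε : ℂ) * (D.ε : ℂ) = 1 := by rcases D.hε with h | h <;> simp [h]
  have hη : (D.η : ℂ) * (D.η : ℂ) = 1 := by rcases D.hη with h | h <;> simp [h]
  have e : (1 + (D.η : ℂ) * (D.f : ℂ)) * ((D.ε : ℂ) * (D.θ : G → ℂ) s ^ 2 / (D.x : ℂ)) =
      (1 + (D.η : ℂ) * (D.ψ : G → ℂ) s) ^ 2 := by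
    rw [← hd, ← hr]
    field_simp
  calc (D.f : ℂ) * (1 + (D.η : ℂ) * (D.f : ℂ)) * (1 + (D.η : ℂ) * (D.ψ : G → ℂ) s ^ 2 / (D.f : ℂ) -
        (D.ε : ℂ) * (D.θ : G → ℂ) s ^ 2 / (D.x : ℂ))
      = (1 + (D.η : ℂ) * (D.f : ℂ)) * ((D.f : ℂ) + (D.η : ℂ) * (D.ψ : G → ℂ) s ^ 2) -
          (D.f : ℂ) * ((1 + (D.η : ℂ) * (D.f : ℂ)) *
            ((D.ε : ℂ) * (D.θ : G → ℂ) s ^ 2 / (D.x : ℂ))) := by
        field_simp
    _ = _ := by
        rw [e]; ring

/-- All involutions are conjugate. -/
theorem isConj_inverter (D : Data p G a) {t : G} (ht : t * a * t = a⁻¹) (ht2 : t * t = 1) {s : G}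
    (hs : orderOf s = 2) : IsConj t s := by
  classical
  by_contra hn
  have h0 : (pairSet a s).card = 0 := by
    rw [Finset.card_eq_zero, pairSet, Finset.filter_eq_empty_iff]
    rintro ⟨x, y⟩ - e
    have hs2 : s * s = 1 := by rw [← pow_two, ← hs, pow_orderOf_eq_one]
    obtain ⟨h1, h2⟩ := H.mem_inverters hs2 e
    exact hn ((H.conj_of_inverts ht ht2 h1 h2).trans (isConj_iff.2 ⟨x, rfl⟩).symm)
  rw [card_pairSet, H.card_centralizer_a] at h0
  have hA : ((Finset.univ.filter fun y : G => IsConj a (s * (y * s * y⁻¹))).card : ℂ) = 0 := by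
    exact_mod_cast (mul_eq_zero.1 h0).resolve_left hp.out.ne_zero
  have h := H.class_sum D hs
  rw [hA, mul_zero] at h
  have h3 := (mul_eq_zero.1 h.symm).resolve_left (Chars.natCard_ne_zero (G := G))
  have h2 := H.class_alg D hs
  rw [h3, mul_zero, eq_comm, mul_eq_zero] at h2
  rcases h2 with h2 | h2
  · rcases D.hη with e | e <;> rw [e] at h2 <;> norm_num at h2
  · have h3 : (D.ψ : G → ℂ) s = (D.ψ : G → ℂ) 1 := by
      rw [← Chars.coe_charDegree, D.hf]
      exact (sub_eq_zero.1 (pow_eq_zero_iff two_ne_zero |>.1 h2)).symm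
    have h1 := eq_one_of_map_eq D.ψ D.ψ_ne h3
    rw [h1, orderOf_one] at hs
    exact absurd hs (by norm_num)

/-- The main counting identity. -/
theorem count_eq (D : Data p G a) {t : G} (hto : orderOf t = 2) (ht : t * a * t = a⁻¹) {s : ℤ}
    (hs : (D.ψ : G → ℂ) t = (s : ℂ)) :
    (Nat.card G : ℤ) * D.η * ((D.f : ℤ) - s) ^ 2 =
      (p : ℤ) * (Nat.card (Subgroup.centralizer ({t} : Set G)) : ℤ) ^ 2 *
        ((D.f : ℤ) * (1 + D.η * (D.f : ℤ))) := by
  classical
  have ht2 : t * t = 1 := by rw [← pow_two, ← hto, pow_orderOf_eq_one]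
  have h0 := H.card_pairSet_inverter ht ht2
  rw [card_pairSet, H.card_centralizer_a] at h0
  have hA := Nat.eq_of_mul_eq_mul_left hp.out.pos h0
  have h := H.class_sum D hto
  rw [hA] at h
  have h2 := H.class_alg D hto
  rw [hs] at h2 h
  refine Int.cast_injective (α := ℂ) ?_
  push_cast
  push_cast at h
  rw [mul_assoc, ← h2]
  linear_combination ((D.f : ℂ) * (1 + (D.η : ℂ) * (D.f : ℂ))) * h.symm

end Hyp

end CfsgLib.ItoThreeP
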