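import Cfsg.Agent.ItoThreeP.ClassMult
import Cfsg.Agent.Chars.PermChar.Suborbit

/-!
# Fixed points of involutions and constituents of the permutation character
-/

set_option autoImplicit false
set_option linter.style.haveILetI false
set_option linter.unusedSectionVars false

namespace CfsgLib.ItoThreeP

open Cfsg CfsgLib MulAction
open scoped ComplexConjugate

universe u v

variable {p : ℕ} [hp : Fact p.Prime] {G : Type u} [Group G] [Fintype G] [IsSimpleGroup G]
  {Ω : Type v} [Fintype Ω] [MulAction G Ω] [FaithfulSMul G Ω] [IsPretransitive G Ω] {a : G}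

theorem factorization_two_eq {n : ℕ} (k m : ℕ) (h : n = 2 ^ k * m) (hm : m % 2 = 1) :
    n.factorization 2 = k := by
  have hm0 : m ≠ 0 := by omega
  rw [h, Nat.factorization_mul (pow_ne_zero k two_ne_zero) hm0, Finsupp.add_apply,
    Nat.prime_two.factorization_pow, Finsupp.single_eq_same,
    Nat.factorization_eq_zero_of_not_dvd (show ¬ 2 ∣ m by omega), add_zero]

/-- The value of a character at an involution, with its parity. -/
theorem exists_value_two (χ : IrrCharacter G) {t : G} (ht : orderOf t = 2) :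
    ∃ s : ℤ, (χ : G → ℂ) t = (s : ℂ) ∧ 2 ∣ (charDegree (χ : G → ℂ) : ℤ) - s ∧
      -(charDegree (χ : G → ℂ) : ℤ) ≤ s := by
  classical
  letI := Fintype.ofFinite (Subgroup.zpowers t)
  obtain ⟨k, hk⟩ := Blocks.exists_sum_subgroup_eq χ (Subgroup.zpowers t)
  have ht1 : t ≠ 1 := fun h => by simp [h] at ht
  have hcard : Fintype.card (Subgroup.zpowers t) = 2 := by
    rw [← Nat.card_eq_fintype_card, Nat.card_zpowers, ht]
  have hne : (1 : Subgroup.zpowers t) ≠ ⟨t, Subgroup.mem_zpowers t⟩ := fun h =>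
    ht1 (congrArg Subtype.val h).symm
  have huniv : ({1, ⟨t, Subgroup.mem_zpowers t⟩} : Finset (Subgroup.zpowers t)) = Finset.univ :=
    Finset.eq_univ_of_card _ (by rw [Finset.card_pair hne, hcard])
  rw [← huniv, Finset.sum_pair hne] at hk
  refine ⟨2 * (k : ℤ) - charDegree (χ : G → ℂ), ?_, ⟨(charDegree (χ : G → ℂ) : ℤ) - k, by ring⟩,
    by omega⟩
  push_cast
  rw [Chars.coe_charDegree]
  simp only [Nat.card_zpowers, ht, Nat.card_eq_fintype_card, hcard, OneMemClass.coe_one] at hk
  push_cast at hk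
  linear_combination hk

namespace Hyp

variable (H : Hyp p G Ω a)
include H

theorem nonempty_pts : Nonempty Ω := Fintype.card_pos_iff.1 (by rw [H.hΩ]; have := H.hp3; omega)

theorem card_fix_inverter {t : G} (ht : t * a * t = a⁻¹) (ht2 : t * t = 1) :
    Nat.card (fixedBy Ω t) = 1 ∨ Nat.card (fixedBy Ω t) = 3 := by
  classical
  have hinv : t⁻¹ = t := inv_eq_of_mul_eq_one_left ht2
  have hle : p * Nat.card (fixedBy Ω t) ≤ 3 * p := by
    have hinj : Function.Injective
        (fun q : Subgroup.zpowers a × fixedBy Ω t => (q.1 : G) • (q.2 : Ω)) := by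
      rintro ⟨⟨b, hb⟩, ⟨x, hx⟩⟩ ⟨⟨c, hc⟩, ⟨y, hy⟩⟩ e
      simp only at e
      have hy' : y = (c⁻¹ * b) • x := by rw [mul_smul, e, inv_smul_smul]
      have hd : c⁻¹ * b ∈ Subgroup.zpowers a := mul_mem (inv_mem hc) hb
      obtain ⟨j, hj⟩ := Subgroup.mem_zpowers_iff.1 hd
      have hj' : (a ^ j)⁻¹ • x = a ^ j • x := by
        have h0 : MulAut.conj t (a ^ j) = (MulAut.conj t a) ^ j := map_zpow _ _ _
        simp only [MulAut.conj_apply, hinv, ht] at h0
        rw [← inv_zpow, ← h0, mul_smul, mul_smul, mem_fixedBy.1 hx, hj, ← hy', mem_fixedBy.1 hy]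
      rw [inv_smul_eq_iff, ← mul_smul] at hj'
      have h1 : a ^ j = 1 := by
        by_contra h
        have hne : a ^ j * a ^ j ≠ 1 := fun h2 => h (by
          obtain ⟨k, hk⟩ := H.odd
          have h3 : (a ^ j) ^ p = 1 := by
            rw [← zpow_natCast, ← zpow_mul, mul_comm, zpow_mul, zpow_natCast, ← H.ha,
              pow_orderOf_eq_one, one_zpow]
          rwa [hk, pow_add, pow_mul, pow_two, h2, one_pow, one_mul, pow_one] at h3)
        refine H.smul_ne_of_dvd (g := a ^ j * a ^ j) ?_ x hj'.symm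
        have hm : a ^ j * a ^ j ∈ Subgroup.zpowers a :=
          mul_mem (zpow_mem (Subgroup.mem_zpowers a) j) (zpow_mem (Subgroup.mem_zpowers a) j)
        rcases (Nat.dvd_prime hp.out).1 (H.card_zpowers ▸ Subgroup.orderOf_dvd_natCard _ hm) with
          h3 | h3
        · exact absurd (orderOf_eq_one_iff.1 h3) hne
        · rw [h3]
      rw [← hj, h1, one_smul] at hy'
      have hbc : b = c := by
        rw [h1] at hj; exact (inv_mul_eq_one.1 hj.symm).symm
      subst hy' hbc
      rfl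
    have := Nat.card_le_card_of_injective _ hinj
    rwa [Nat.card_prod, H.card_zpowers, Nat.card_eq_fintype_card (α := Ω), H.hΩ] at this
  have hle3 : Nat.card (fixedBy Ω t) ≤ 3 := by
    rw [mul_comm 3] at hle
    exact Nat.le_of_mul_le_mul_left hle hp.out.pos
  haveI : Fact (Nat.Prime 2) := ⟨Nat.prime_two⟩
  have hto : orderOf t ∣ 2 := orderOf_dvd_of_pow_eq_one (by rw [pow_two, ht2])
  have hg : IsPGroup 2 (Subgroup.zpowers t) := by
    rcases (Nat.dvd_prime Nat.prime_two).1 hto with h | h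
    · exact IsPGroup.of_card (n := 0) (by rw [Nat.card_zpowers, h, pow_zero])
    · exact IsPGroup.of_card (n := 1) (by rw [Nat.card_zpowers, h, pow_one])
  have hmod := hg.card_modEq_card_fixedPoints Ω
  have hfix : fixedPoints (Subgroup.zpowers t) Ω = fixedBy Ω t := by
    ext x
    constructor
    · intro h; exact h ⟨t, Subgroup.mem_zpowers t⟩
    · rintro h ⟨g, hg⟩
      obtain ⟨j, rfl⟩ := Subgroup.mem_zpowers_iff.1 hg
      exact MulAction.mem_stabilizer_iff.1 ((stabilizer G x).zpow_mem h j)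
  rw [hfix, Nat.card_eq_fintype_card (α := Ω), H.hΩ, Nat.ModEq] at hmod
  have hodd : 3 * p % 2 = 1 := Nat.odd_iff.1 ((by decide : Odd 3).mul H.odd)
  omega

theorem fixChar_inverter {t : G} (ht : t * a * t = a⁻¹) (ht2 : t * t = 1) :
    Chars.PermChar.fixChar G Ω t = 1 ∨ Chars.PermChar.fixChar G Ω t = 3 := by
  unfold Chars.PermChar.fixChar
  rcases H.card_fix_inverter ht ht2 with h | h <;> rw [h] <;> norm_num

theorem exists_decomp (D : Data p G a) :
    ∃ (c d M : ℕ) (m : IrrCharacter G → ℕ),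
      (D.ε * (d : ℤ) = 1 + D.η * (c : ℤ)) ∧
      3 * p = 1 + c * D.f + d * (D.Y.card * D.x) + p * M ∧
      (∀ χ : IrrCharacter G, classInner (Chars.PermChar.fixChar G Ω) (χ : G → ℂ) = m χ) ∧
      m D.ψ = c ∧ (∀ χ ∈ D.Y, m χ = d) ∧
      (∀ χ : IrrCharacter G, χ ≠ Chars.oneChar G → χ ≠ D.ψ → χ ∉ D.Y →
        m χ * charDegree (χ : G → ℂ) ≤ p * M) ∧
      ∀ g : G, Chars.PermChar.fixChar G Ω g =
        1 + (c : ℂ) * (D.ψ : G → ℂ) g + (d : ℂ) * ∑ χ ∈ D.Y, (χ : G → ℂ) g +
          ∑ χ ∈ Finset.univ.filter (fun χ : IrrCharacter G =>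
              χ ≠ Chars.oneChar G ∧ χ ≠ D.ψ ∧ χ ∉ D.Y), (m χ : ℂ) * (χ : G → ℂ) g := by
  classical
  obtain ⟨α⟩ := H.nonempty_pts
  have hchar : IsCharacter G (Chars.PermChar.fixChar G Ω) := Chars.PermChar.isCharacter_fixChar
  obtain ⟨m, -, hm⟩ := Chars.exists_nat_coeff hchar
  set π := Chars.PermChar.fixChar G Ω with hπ
  have hm1 : m (Chars.oneChar G) = 1 := by
    have h := Chars.PermChar.classInner_fixChar_one (G := G) α
    rw [show (fun _ : G => (1 : ℂ)) = ((Chars.oneChar G : IrrCharacter G) : G → ℂ) from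
      funext fun g => (Chars.oneChar_apply g).symm, hm] at h
    exact_mod_cast h
  have hY : ∀ χ ∈ D.Y, m χ = m D.θ := by
    intro χ hχ
    have e : classInner π (χ : G → ℂ) = classInner π (D.θ : G → ℂ) := by
      simp only [classInner]
      congr 1
      refine Finset.sum_congr rfl fun g _ => ?_
      by_cases hg : p ∣ orderOf g
      · rw [hπ, H.fixChar_eq_zero hg, zero_mul, zero_mul]
      · rw [D.regular χ hχ g hg]
    rw [hm, hm] at e
    exact_mod_cast e
  have hrel : D.ε * (m D.θ : ℤ) = 1 + D.η * (m D.ψ : ℤ) := by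
    refine Int.cast_injective (α := ℂ) ?_
    push_cast
    rw [← hm, ← hm]
    have h1 := Chars.PermChar.classInner_fixChar_one (G := G) α
    rw [← h1]
    simp only [classInner, Finset.mul_sum]
    rw [← Finset.sum_add_distrib]
    refine Finset.sum_congr rfl fun g _ => ?_
    by_cases hg : p ∣ orderOf g
    · rw [hπ, H.fixChar_eq_zero hg]
      ring
    · have h := congrArg conj (D.rel g hg)
      rw [map_mul, map_add, map_mul, map_one, map_intCast, map_intCast] at h
      simp only [map_one]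
      linear_combination ((Nat.card G : ℂ)⁻¹ * π g) * h
  set R := Finset.univ.filter (fun χ : IrrCharacter G =>
      χ ≠ Chars.oneChar G ∧ χ ≠ D.ψ ∧ χ ∉ D.Y) with hR
  have hdec : ∀ g : G, π g = 1 + (m D.ψ : ℂ) * (D.ψ : G → ℂ) g +
      (m D.θ : ℂ) * ∑ χ ∈ D.Y, (χ : G → ℂ) g + ∑ χ ∈ R, (m χ : ℂ) * (χ : G → ℂ) g := by
    intro g
    rw [Chars.eq_sum_classInner_mul (Chars.isClassFunction_of_isCharacter hchar) g]
    simp only [hm]
    have hS : Finset.univ.filter (fun χ : IrrCharacter G =>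
        ¬ (χ ≠ Chars.oneChar G ∧ χ ≠ D.ψ ∧ χ ∉ D.Y)) =
        insert (Chars.oneChar G) (insert D.ψ D.Y) := by
      ext χ
      simp only [Finset.mem_filter, Finset.mem_univ, true_and, Finset.mem_insert]
      tauto
    rw [← Finset.sum_filter_add_sum_filter_not Finset.univ (fun χ : IrrCharacter G =>
      χ ≠ Chars.oneChar G ∧ χ ≠ D.ψ ∧ χ ∉ D.Y), hS,
      Finset.sum_insert (by simp [D.ψ_ne.symm, D.one_notMem]),
      Finset.sum_insert D.ψ_notMem, hm1, Chars.oneChar_apply, Finset.mul_sum,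
      Finset.sum_congr rfl (fun χ (hχ : χ ∈ D.Y) =>
        show (m χ : ℂ) * (χ : G → ℂ) g = (m D.θ : ℂ) * (χ : G → ℂ) g by rw [hY χ hχ])]
    simp only [hR]
    push_cast
    ring
  have hdeg : ∀ χ ∈ R, p ∣ charDegree (χ : G → ℂ) := fun χ hχ => by
    obtain ⟨-, h1, h2, h3⟩ := Finset.mem_filter.1 hχ
    exact D.dvd_deg H χ h1 h2 h3
  refine ⟨m D.ψ, m D.θ, ∑ χ ∈ R, m χ * (charDegree (χ : G → ℂ) / p), m, hrel, ?_, hm, rfl, hY,
    ?_, hdec⟩
  · have h := hdec 1
    rw [hπ, Chars.PermChar.fixChar_one_eq, H.hΩ] at h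
    have hY1 : ∑ χ ∈ D.Y, (χ : G → ℂ) 1 = ((D.Y.card * D.x : ℕ) : ℂ) := by
      rw [Nat.cast_mul, ← nsmul_eq_mul, ← Finset.sum_const]
      refine Finset.sum_congr rfl fun χ hχ => ?_
      rw [D.regular χ hχ 1 (by rw [orderOf_one]; exact hp.out.not_dvd_one),
        ← Chars.coe_charDegree, D.hx]
    have hR1 : ∑ χ ∈ R, (m χ : ℂ) * (χ : G → ℂ) 1 =
        ((p * ∑ χ ∈ R, m χ * (charDegree (χ : G → ℂ) / p) : ℕ) : ℂ) := by
      rw [Finset.mul_sum, Nat.cast_sum]
      refine Finset.sum_congr rfl fun χ hχ => ?_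
      rw [← Chars.coe_charDegree, ← Nat.cast_mul, mul_left_comm, Nat.mul_div_cancel' (hdeg χ hχ)]
    rw [hY1, hR1, ← Chars.coe_charDegree D.ψ, D.hf] at h
    exact_mod_cast h
  · intro χ h1 h2 h3
    have hχR : χ ∈ R := Finset.mem_filter.2 ⟨Finset.mem_univ _, h1, h2, h3⟩
    calc m χ * charDegree (χ : G → ℂ) = p * (m χ * (charDegree (χ : G → ℂ) / p)) := by
          rw [mul_left_comm, Nat.mul_div_cancel' (hdeg χ hχR)]
      _ ≤ _ := Nat.mul_le_mul_left p
          (Finset.single_le_sum (f := fun χ : IrrCharacter G =>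
            m χ * (charDegree (χ : G → ℂ) / p)) (fun _ _ => Nat.zero_le _) hχR)

theorem centralizer_two (D : Data p G a) {t : G} (hto : orderOf t = 2) (ht : t * a * t = a⁻¹) :
    (Nat.card (Subgroup.centralizer ({t} : Set G))).factorization 2 =
      (Nat.card G).factorization 2 := by
  haveI : Fact (Nat.Prime 2) := ⟨Nat.prime_two⟩
  have ht2 : t * t = 1 := by rw [← pow_two, ← hto, pow_orderOf_eq_one]
  have hd : 2 ∣ Nat.card G := hto ▸ orderOf_dvd_natCard t
  obtain ⟨S⟩ := (inferInstance : Nonempty (Sylow 2 G))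
  haveI : Nontrivial (S : Subgroup G) :=
    (Subgroup.nontrivial_iff_ne_bot _).2 (S.ne_bot_of_dvd_card hd)
  haveI := S.isPGroup'.center_nontrivial
  haveI : IsPGroup 2 (Subgroup.center (S : Subgroup G)) := S.isPGroup'.to_subgroup _
  obtain ⟨z, hz⟩ := exists_prime_orderOf_dvd_card' (G := Subgroup.center (S : Subgroup G)) 2 (by
    obtain ⟨k, hk⟩ := IsPGroup.iff_card.1 (S.isPGroup'.to_subgroup
      (Subgroup.center (S : Subgroup G)))
    rw [hk]
    refine dvd_pow_self 2 fun h => ?_
    rw [h, pow_zero] at hk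
    exact absurd (Nat.card_eq_one_iff_unique.1 hk).1 (not_subsingleton _))
  have hzo : orderOf ((z : (S : Subgroup G)) : G) = 2 := by
    rw [Subgroup.orderOf_coe, Subgroup.orderOf_coe, hz]
  obtain ⟨x, hx⟩ := isConj_iff.1 (H.isConj_inverter D ht ht2 hzo)
  have hS : (S : Subgroup G) ≤ Subgroup.centralizer ({((z : (S : Subgroup G)) : G)} : Set G) :=
    fun g hg => Subgroup.mem_centralizer_singleton_iff.2
      (congrArg Subtype.val (Subgroup.mem_center_iff.1 z.2 ⟨g, hg⟩))
  have hcard : Nat.card (Subgroup.centralizer ({t} : Set G)) =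
      Nat.card (Subgroup.centralizer ({((z : (S : Subgroup G)) : G)} : Set G)) := by
    have h1 := Chars.card_isConj_mul_card_centralizer t
    have h2 := Chars.card_isConj_mul_card_centralizer ((z : (S : Subgroup G)) : G)
    have h3 : Nat.card {y : G // IsConj t y} =
        Nat.card {y : G // IsConj ((z : (S : Subgroup G)) : G) y} :=
      Nat.card_congr (Equiv.subtypeEquivRight fun y =>
        ⟨fun h => (isConj_iff.2 ⟨x, hx⟩).symm.trans h, fun h => (isConj_iff.2 ⟨x, hx⟩).trans h⟩)
    rw [← h2, ← h3] at h1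
    exact Nat.eq_of_mul_eq_mul_left (Nat.card_pos_iff.2 ⟨⟨⟨t, IsConj.refl t⟩⟩, inferInstance⟩) h1
  rw [hcard]
  refine le_antisymm ((Nat.factorization_le_iff_dvd Nat.card_pos.ne' Nat.card_pos.ne').2
    (Subgroup.card_subgroup_dvd_card _) 2) ?_
  refine (Nat.prime_two.pow_dvd_iff_le_factorization Nat.card_pos.ne').1 ?_
  rw [← S.card_eq_multiplicity]
  exact Subgroup.card_dvd_of_le hS

theorem two_le_factorization : 2 ≤ (Nat.card G).factorization 2 := by
  haveI : Fact (Nat.Prime 2) := ⟨Nat.prime_two⟩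
  obtain ⟨t, hto, -⟩ := H.exists_inverter
  have hd : 2 ∣ Nat.card G := hto ▸ orderOf_dvd_natCard t
  by_contra h
  obtain ⟨S⟩ := (inferInstance : Nonempty (Sylow 2 G))
  have h1 := Nat.prime_two.factorization_pos_of_dvd Nat.card_pos.ne' hd
  have h2 : Nat.card (S : Subgroup G) = 2 := by
    rw [S.card_eq_multiplicity, show (Nat.card G).factorization 2 = 1 by omega, pow_one]
  exact SmallSimple.sylow_minFac_not_isCyclic H.nc
    ((Nat.minFac_eq_two_iff _).2 hd) S (isCyclic_of_prime_card h2)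

/-- The possible degrees. -/
theorem cases (D : Data p G a) :
    (D.ε = -1 ∧ D.η = -1 ∧ D.x = p - 2 ∧ D.f = p - 1) ∨
    (D.ε = -1 ∧ D.η = -1 ∧ D.f = 3 * p - 1 ∧ D.x + 1 = D.f ∧
      ∀ g : G, Chars.PermChar.fixChar G Ω g = 1 + (D.ψ : G → ℂ) g) ∨
    (D.ε = -1 ∧ D.η = -1 ∧ D.f = 2 * p - 1 ∧ D.x + 1 = D.f ∧
      ∃ φ : IrrCharacter G, φ ≠ Chars.oneChar G ∧ φ ≠ D.ψ ∧ φ ∉ D.Y ∧
        charDegree (φ : G → ℂ) = p ∧
        ∀ g : G, Chars.PermChar.fixChar G Ω g = 1 + (D.ψ : G → ℂ) g + (φ : G → ℂ) g) := by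
  classical
  obtain ⟨c, d, M, m, hrel, hdeg, hm, hmψ, hmY, hbd, hdec⟩ := H.exists_decomp D
  have hp3 := H.hp3
  have hdr := D.deg_rel H
  have hf0 := D.f_pos H
  have hx0 := D.x_pos H
  obtain ⟨hf1, hx1⟩ : D.f ≠ 1 ∧ D.x ≠ 1 := ⟨D.f_ne_one, D.x_ne_one⟩
  obtain ⟨l, hl⟩ : ∃ l : ℤ, (D.x : ℤ) = D.ε * 2 + p * l := by
    obtain ⟨l, hl⟩ := (ZMod.intCast_eq_intCast_iff_dvd_sub (D.ε * 2) (D.x : ℤ) p).1 (by
      push_cast; exact D.congrx.symm)
    exact ⟨l, by linarith⟩
  obtain ⟨n, hn⟩ : ∃ n : ℤ, (D.f : ℤ) = D.η + p * n := by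
    obtain ⟨n, hn⟩ := (ZMod.intCast_eq_intCast_iff_dvd_sub D.η (D.f : ℤ) p).1 (by
      push_cast; exact D.congrf.symm)
    exact ⟨n, by linarith⟩
  rcases Nat.eq_zero_or_pos d with hd | hd
  · -- the exceptional characters do not occur
    subst hd
    have hc : c = 1 ∧ D.η = -1 := by
      rcases D.hη with h | h <;> rw [h] at hrel <;> omega
    obtain ⟨rfl, hη⟩ := hc
    rw [hη] at hn hdr
    have hε : D.ε = -1 := by
      rcases D.hε with h | h
      · rw [h] at hdr; omega
      · exact h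
    rw [hε] at hdr
    have hxf : D.x + 1 = D.f := by omega
    have hn' : n = 1 ∨ n = 2 ∨ n = 3 := by
      have h1 : 0 < n := by nlinarith
      have h2 : n < 4 := by
        by_contra h
        push Not at h
        have : (p : ℤ) * 4 ≤ p * n := by nlinarith
        omega
      omega
    rcases hn' with rfl | rfl | rfl
    · exact Or.inl ⟨hε, hη, by omega, by omega⟩
    · refine Or.inr (Or.inr ⟨hε, hη, by omega, hxf, ?_⟩)
      have hM : M = 1 := by
        have : p * M = p * 1 := by omega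
        exact Nat.eq_of_mul_eq_mul_left hp.out.pos this
      set R := Finset.univ.filter (fun χ : IrrCharacter G =>
        χ ≠ Chars.oneChar G ∧ χ ≠ D.ψ ∧ χ ∉ D.Y) with hR
      obtain ⟨φ, hφR, hφm⟩ : ∃ φ ∈ R, m φ ≠ 0 := by
        by_contra h
        push Not at h
        have h1 := hdec 1
        have hR0 : ∑ χ ∈ R, (m χ : ℂ) * (χ : G → ℂ) 1 = 0 :=
          Finset.sum_eq_zero fun χ hχ => by rw [h χ hχ]; simp
        rw [hR0, Chars.PermChar.fixChar_one_eq, H.hΩ, ← Chars.coe_charDegree, D.hf] at h1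
        simp only [Nat.cast_zero, zero_mul, add_zero, Nat.cast_one, one_mul] at h1
        have : 3 * p = 1 + D.f := by exact_mod_cast h1
        omega
      obtain ⟨h1, h2, h3⟩ : φ ≠ Chars.oneChar G ∧ φ ≠ D.ψ ∧ φ ∉ D.Y := (Finset.mem_filter.1 hφR).2
      have hφd : m φ = 1 ∧ charDegree (φ : G → ℂ) = p := by
        have hb := hbd φ h1 h2 h3
        rw [hM, mul_one] at hb
        have hge := Nat.le_of_dvd (Chars.charDegree_pos φ) (D.dvd_deg H φ h1 h2 h3)
        have : m φ = 1 := by
          by_contra h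
          have h2 : 2 ≤ m φ := by omega
          nlinarith
        rw [this, one_mul] at hb
        exact ⟨this, le_antisymm hb hge⟩
      refine ⟨φ, h1, h2, h3, hφd.2, ?_⟩
      have hz : ∀ χ ∈ R, χ ≠ φ → m χ = 0 := by
        intro χ hχ hne
        by_contra h
        have h0 := hdec 1
        rw [← Finset.add_sum_erase _ _ hφR, ← Finset.add_sum_erase _ _
          (Finset.mem_erase.2 ⟨hne, hχ⟩), Chars.PermChar.fixChar_one_eq, H.hΩ,
          ← Chars.coe_charDegree, D.hf, ← Chars.coe_charDegree, hφd.1, hφd.2,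
          ← Chars.coe_charDegree χ] at h0
        simp only [← Chars.coe_charDegree, ← Nat.cast_mul, ← Nat.cast_sum, Nat.cast_zero, zero_mul,
          add_zero, Nat.cast_one, one_mul] at h0
        norm_cast at h0
        have hχd := Chars.charDegree_pos χ
        have hpos := Nat.mul_pos (Nat.pos_of_ne_zero h) hχd
        omega
      intro g
      have hR0 : ∑ χ ∈ R.erase φ, (m χ : ℂ) * (χ : G → ℂ) g = 0 :=
        Finset.sum_eq_zero fun χ hχ => by
          rw [hz χ (Finset.mem_of_mem_erase hχ) (Finset.ne_of_mem_erase hχ)]; simp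
      rw [hdec g, ← Finset.add_sum_erase _ _ hφR, hφd.1, hR0]
      simp
    · refine Or.inr (Or.inl ⟨hε, hη, by omega, hxf, ?_⟩)
      intro g
      have hR0 : ∑ χ ∈ Finset.univ.filter (fun χ : IrrCharacter G =>
          χ ≠ Chars.oneChar G ∧ χ ≠ D.ψ ∧ χ ∉ D.Y), (m χ : ℂ) * (χ : G → ℂ) g = 0 := by
        refine Finset.sum_eq_zero fun χ hχ => ?_
        obtain ⟨-, h1, h2, h3⟩ := Finset.mem_filter.1 hχ
        have hM : p * M = 0 := by omega
        have hb := hbd χ h1 h2 h3
        rw [hM, Nat.le_zero, mul_eq_zero] at hb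
        rw [hb.resolve_right (Chars.charDegree_pos χ).ne']
        simp
      rw [hdec g, hR0]
      simp
  · -- the exceptional characters occur
    have hY2 : D.Y.card * 2 = p - 1 := by rw [mul_comm]; exact D.cardY
    have hx7 : D.x ≤ 7 := by
      have h1 : D.Y.card * D.x ≤ d * (D.Y.card * D.x) := Nat.le_mul_of_pos_left _ hd
      have h2 : D.Y.card * D.x ≤ 3 * p - 1 := by omega
      by_contra h
      have h3 : D.Y.card * 8 ≤ D.Y.card * D.x := Nat.mul_le_mul_left _ (by omega)
      obtain ⟨q, hq⟩ := H.odd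
      omega
    rcases D.hε with hε | hε
    · rw [hε] at hl hdr hrel
      have hl2 : l = 0 ∨ l = 1 := by
        have h1 : -1 < l := by nlinarith
        have h2 : l < 2 := by nlinarith
        omega
      rcases hl2 with rfl | rfl
      · exfalso
        rcases D.hη with h | h <;> rw [h] at hdr <;> omega
      · -- `p = 5`, `x = 7`
        exfalso
        have hp5 : p = 5 := by omega
        have hx' : D.x = 7 := by omega
        have hη : D.η = 1 := by rcases D.hη with h | h <;> rw [h] at hdr <;> omega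
        rw [hη] at hdr hrel
        have hf6 : D.f = 6 := by omega
        rw [hx', show D.Y.card = 2 by omega, hf6] at hdeg
        have hcdM : c = 0 ∧ d = 1 ∧ p * M = 0 := by omega
        obtain ⟨rfl, rfl, hM⟩ := hcdM
        obtain ⟨t, hto, ht⟩ := H.exists_inverter
        have ht2 : t * t = 1 := by rw [← pow_two, ← hto, pow_orderOf_eq_one]
        obtain ⟨s, hs, hs2, -⟩ := exists_value_two D.ψ hto
        rw [D.hf, hf6] at hs2
        have hπ : Chars.PermChar.fixChar G Ω t = ((1 + 2 * (1 + s) : ℤ) : ℂ) := by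
          have hnd := H.not_dvd_of_sq hto
          have h := D.rel t hnd
          rw [hε, hη, hs] at h
          push_cast at h
          have hR0 : ∑ χ ∈ Finset.univ.filter (fun χ : IrrCharacter G =>
              χ ≠ Chars.oneChar G ∧ χ ≠ D.ψ ∧ χ ∉ D.Y), (m χ : ℂ) * (χ : G → ℂ) t = 0 := by
            refine Finset.sum_eq_zero fun χ hχ => ?_
            obtain ⟨-, h1, h2, h3⟩ := Finset.mem_filter.1 hχ
            have hb := hbd χ h1 h2 h3
            rw [hM, Nat.le_zero, mul_eq_zero] at hb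
            rw [hb.resolve_right (Chars.charDegree_pos χ).ne']
            simp
          rw [hdec t, hR0, Finset.sum_congr rfl (fun χ (hχ : χ ∈ D.Y) => D.regular χ hχ t hnd),
            Finset.sum_const, nsmul_eq_mul, show D.Y.card = 2 by omega]
          push_cast
          linear_combination (2 : ℂ) * h
        have hs0 : s = 0 := by
          rcases H.fixChar_inverter ht ht2 with h | h <;> rw [hπ] at h <;> norm_cast at h <;> omega
        have hcnt := H.count_eq D hto ht hs
        rw [hη, hf6, hs0, hp5] at hcnt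
        have h2 := H.centralizer_two D hto ht
        set c2 := Nat.card (Subgroup.centralizer ({t} : Set G))
        have hcnt' : Nat.card G * 36 = c2 ^ 2 * 210 := by
          have : ((Nat.card G * 36 : ℕ) : ℤ) = ((c2 ^ 2 * 210 : ℕ) : ℤ) := by
            norm_num at hcnt ⊢
            linarith
          exact_mod_cast this
        have hc0 : c2 ≠ 0 := Nat.card_pos.ne'
        have h3 : (Nat.card G).factorization 2 + (36 : ℕ).factorization 2 =
            2 * c2.factorization 2 + (210 : ℕ).factorization 2 := by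
          have h4 := congrArg (fun n : ℕ => n.factorization 2) hcnt'
          simpa [Nat.factorization_mul Nat.card_pos.ne', Nat.factorization_mul (pow_ne_zero 2 hc0),
            Nat.factorization_pow] using h4
        have h36 : (36 : ℕ).factorization 2 = 2 := factorization_two_eq 2 9 (by norm_num) (by norm_num)
        have h210 : (210 : ℕ).factorization 2 = 1 :=
          factorization_two_eq 1 105 (by norm_num) (by norm_num)
        have := H.two_le_factorization
        rw [h36, h210] at h3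
        omega
    · rw [hε] at hl hdr
      refine Or.inl ⟨hε, ?_⟩
      have hl1 : l = 1 := by
        have h1 : 0 < l := by nlinarith
        have h2 : l < 2 := by
          by_contra h
          push Not at h
          have := mul_le_mul_of_nonneg_left h (show (0 : ℤ) ≤ (p : ℤ) by positivity)
          omega
        omega
      subst hl1
      rcases D.hη with h | h <;> rw [h] at hdr ⊢ <;> exact ⟨by omega, by omega, by omega⟩

end Hyp

end CfsgLib.ItoThreeP
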