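import Cfsg.Agent.ItoThreeP.Basic
import Cfsg.Agent.SmallSimple.Basic
import Cfsg.Agent.S4706

/-!
# The imprimitive case
-/

set_option autoImplicit false
set_option linter.style.haveILetI false
set_option linter.unusedSectionVars false

namespace CfsgLib.ItoThreeP

open Cfsg CfsgLib MulAction

universe u v

variable {p : ℕ} [hp : Fact p.Prime] {G : Type u} [Group G] [Fintype G] [IsSimpleGroup G]
  {Ω : Type v} [Fintype Ω] [MulAction G Ω] [IsPretransitive G Ω]

/-- A subgroup of prime index `p` in `G` leads to `PSL(2, 2^m)`. -/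
theorem of_index_prime (hp3 : 3 < p) (hG : ¬ IsMulCommutative G)
    (P : Sylow p G) (hN : Nat.card ↥(Subgroup.normalizer ((P : Subgroup G) : Set G)) = 2 * p)
    (K : Subgroup G) (hK : K.index = p) :
    ∃ (F : Type) (_ : Field F) (_ : Fintype F) (m : ℕ), Fintype.card F = 2 ^ m ∧ p = 2 ^ m + 1 ∧
      Nonempty (G ≃* Matrix.ProjectiveSpecialLinearGroup (Fin 2) F) := by
  classical
  letI : Fintype (G ⧸ K) := Fintype.ofFinite _
  have hα : Fintype.card (G ⧸ K) = p := by rw [← Nat.card_eq_fintype_card, ← hK]; rfl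
  set f := MulAction.toPermHom G (G ⧸ K) with hf
  have hinj : Function.Injective f := by
    rw [← MonoidHom.ker_eq_bot_iff]
    rcases (inferInstance : f.ker.Normal).eq_bot_or_eq_top with h | h
    · exact h
    · exfalso
      rw [hf, ← Subgroup.normalCore_eq_ker] at h
      have : K = ⊤ := top_le_iff.1 (h ▸ Subgroup.normalCore_le K)
      rw [this, Subgroup.index_top] at hK
      exact hp.out.ne_one hK.symm
  let e : G ≃* f.range := MonoidHom.ofInjective hinj
  set P' : Sylow p f.range := P.mapSurjective (f := e.toMonoidHom) e.surjective with hP'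
  have hP'c : (P' : Subgroup f.range) = (P : Subgroup G).map e.toMonoidHom :=
    Sylow.coe_mapSurjective _ _
  have hN' : Nat.card (Subgroup.normalizer ((P' : Subgroup f.range) : Set f.range)) = 2 * p := by
    rw [hP'c, ← Subgroup.map_equiv_normalizer_eq, ← hN]
    exact (Nat.card_congr ((Subgroup.normalizer ((P : Subgroup G) : Set G)).equivMapOfInjective
      e.toMonoidHom e.injective).toEquiv).symm
  rcases Cfsg.Agent.S4706.result (α := G ⧸ K) (show 2 < p by omega) hα f.range P' hN' with
    hn | ⟨m, F, iF, iF', hpm, hF, ⟨e₂⟩⟩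
  · exfalso
    have hPn : (P : Subgroup G).Normal := by
      have h := hn.comap e.toMonoidHom
      rwa [hP'c, Subgroup.comap_map_eq_self_of_injective (f := e.toMonoidHom) e.injective] at h
    have hd : p ∣ Nat.card G := hK ▸ K.index_dvd_card
    rcases hPn.eq_bot_or_eq_top with h | h
    · exact P.ne_bot_of_dvd_card hd h
    · rw [Subgroup.normalizer_eq_top (H := (P : Subgroup G)), Subgroup.card_top] at hN
      have hNt : Nat.card G = 2 * p := hN
      have hc := P.card_eq_multiplicity
      rw [h, Subgroup.card_top, hNt] at hc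
      rw [Nat.factorization_mul two_ne_zero hp.out.ne_zero, Finsupp.add_apply,
        hp.out.factorization_self, Nat.factorization_eq_zero_of_not_dvd
          (fun h => by have := Nat.le_of_dvd two_pos h; omega)] at hc
      simp only [zero_add, pow_one] at hc
      omega
  · refine ⟨F, iF, iF', m, hF, hpm, ⟨?_⟩⟩
    let e₃ : G ≃* Matrix.SpecialLinearGroup (Fin 2) F := e.trans e₂
    have hZ : Subgroup.center (Matrix.SpecialLinearGroup (Fin 2) F) = ⊥ := by
      rw [eq_bot_iff]
      intro z hz
      have hz' : e₃.symm z ∈ Subgroup.center G := by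
        rw [Subgroup.mem_center_iff]
        intro g
        apply e₃.injective
        rw [map_mul, map_mul, e₃.apply_symm_apply]
        exact Subgroup.mem_center_iff.1 hz _
      rcases (inferInstance : (Subgroup.center G).Normal).eq_bot_or_eq_top with h | h
      · rw [h, Subgroup.mem_bot] at hz'
        rw [Subgroup.mem_bot, ← e₃.apply_symm_apply z, hz', map_one]
      · exact absurd ⟨⟨fun x y =>
          (Subgroup.mem_center_iff.1 (h ▸ Subgroup.mem_top y : y ∈ Subgroup.center G) x)⟩⟩ hG
    exact e₃.trans (QuotientGroup.quotientBot.symm.trans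
      (QuotientGroup.quotientMulEquivOfEq hZ.symm))

/-- The imprimitive case. -/
theorem imprimitive (hp3 : 3 < p) (hG : ¬ IsMulCommutative G) (hΩ : Fintype.card Ω = 3 * p)
    (P : Sylow p G) (hN : Nat.card ↥(Subgroup.normalizer ((P : Subgroup G) : Set G)) = 2 * p)
    (himp : ¬ IsPreprimitive G Ω) :
    ∃ (F : Type) (_ : Field F) (_ : Fintype F) (m : ℕ), Fintype.card F = 2 ^ m ∧ p = 2 ^ m + 1 ∧
      Nonempty (G ≃* Matrix.ProjectiveSpecialLinearGroup (Fin 2) F) := by
  classical
  haveI : Nonempty Ω := Fintype.card_pos_iff.1 (by omega)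
  haveI : Nontrivial Ω := Fintype.one_lt_card_iff_nontrivial.1 (by omega)
  obtain ⟨α⟩ := (inferInstance : Nonempty Ω)
  have hst : (stabilizer G α).index = 3 * p := by
    rw [index_stabilizer_of_transitive, Nat.card_eq_fintype_card, hΩ]
  have hne : stabilizer G α ≠ ⊤ := fun h => by
    rw [h, Subgroup.index_top] at hst; omega
  obtain ⟨K, hlt, hKtop⟩ : ∃ K, stabilizer G α < K ∧ K ≠ ⊤ := by
    by_contra h
    refine himp ((MulAction.isCoatom_stabilizer_iff_preprimitive G α).1 ⟨hne, fun K hK => ?_⟩)
    by_contra hK'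
    exact h ⟨K, hK, hK'⟩
  have hdvd : K.index ∣ 3 * p := hst ▸ Subgroup.index_dvd_of_le hlt.le
  have hne1 : K.index ≠ 1 := fun h => hKtop (Subgroup.index_eq_one.1 h)
  have hne3p : K.index ≠ 3 * p := by
    rw [← hst]
    exact (Subgroup.index_strictAnti hlt).ne
  have hcases : K.index = 3 ∨ K.index = p := by
    obtain ⟨d₁, d₂, h₁, h₂, h⟩ := Nat.dvd_mul.1 hdvd
    rcases (Nat.dvd_prime Nat.prime_three).1 h₁ with rfl | rfl <;>
      rcases (Nat.dvd_prime hp.out).1 h₂ with rfl | rfl <;> omega
  rcases hcases with h | h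
  · exfalso
    have h1 := SmallSimple.card_dvd_factorial_index hG K hKtop
    rw [h, show Nat.factorial 3 = 6 by rfl] at h1
    have hd : p ∣ Nat.card G := by
      have h2 : (stabilizer G α).index ∣ Nat.card G := (stabilizer G α).index_dvd_card
      rw [hst] at h2
      exact (dvd_mul_left p 3).trans h2
    have h6 : p ∣ 2 * 3 := (dvd_mul_of_dvd_right hd 2).trans h1
    rcases hp.out.dvd_mul.1 h6 with h7 | h7 <;> have := Nat.le_of_dvd (by norm_num) h7 <;> omega
  · exact of_index_prime hp3 hG P hN K h

end CfsgLib.ItoThreeP
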